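import Mathlib
import Cfsg.Agent.PGrp.Metacyclic
import Cfsg.Agent.Suz.FirstA

/-! Metacyclic `p`-groups for odd `p`: coordinates on the central quotient. -/

set_option autoImplicit false
set_option linter.unusedSectionVars false

open Subgroup
open scoped commutatorElement

namespace Cfsg.Agent.PGrp

/-- The geometric sum `1 + ρ + ⋯ + ρ ^ (m - 1)`. -/
def gs (ρ : ℤ) (m : ℕ) : ℤ := ∑ k ∈ Finset.range m, ρ ^ k

theorem gs_zero (ρ : ℤ) : gs ρ 0 = 0 := by simp [gs]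

theorem gs_succ (ρ : ℤ) (m : ℕ) : gs ρ (m + 1) = gs ρ m + ρ ^ m := Finset.sum_range_succ _ _

theorem gs_add (ρ : ℤ) (m l : ℕ) : gs ρ (m + l) = gs ρ m + ρ ^ m * gs ρ l := by
  induction l with
  | zero => simp [gs_zero]
  | succ l ih => rw [← add_assoc, gs_succ, ih, gs_succ]; ring

theorem gs_mul (ρ : ℤ) (m l : ℕ) : gs ρ (m * l) = gs ρ m * gs (ρ ^ m) l := by
  induction l with
  | zero => simp [gs_zero]
  | succ l ih => rw [mul_add, mul_one, add_comm (m * l), gs_add, ih, add_comm l 1, gs_add]; simp [gs]; ring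

theorem gs_mul_sub (ρ : ℤ) (m : ℕ) : gs ρ m * (ρ - 1) = ρ ^ m - 1 := geom_sum_mul ρ m

theorem dvd_pow_sub_one {d ρ : ℤ} (h : d ∣ ρ - 1) (m : ℕ) : d ∣ ρ ^ m - 1 :=
  h.trans (Dvd.intro_left _ (gs_mul_sub ρ m))

theorem dvd_gs_sub {d ρ : ℤ} (h : d ∣ ρ - 1) (m : ℕ) : d ∣ gs ρ m - m := by
  induction m with
  | zero => simp [gs_zero]
  | succ m ih =>
    have := ih.add (dvd_pow_sub_one h m)
    rw [gs_succ]; push_cast
    rw [show gs ρ m + ρ ^ m - (m + 1) = gs ρ m - m + (ρ ^ m - 1) by ring]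
    exact this

theorem gs_prime {p : ℕ} (hp : Odd p) {ρ : ℤ} (h : (p : ℤ) ∣ ρ - 1) :
    ∃ z, gs ρ p = p * (1 + (ρ - 1) * z) := by
  have h1 : ∀ m : ℕ, ∃ w : ℤ, gs ρ m - m = (ρ - 1) * ((m.choose 2 : ℕ) + p * w) := by
    intro m
    induction m with
    | zero => exact ⟨0, by simp [gs_zero]⟩
    | succ m ih =>
      obtain ⟨w, hw⟩ := ih
      obtain ⟨y, hy⟩ := dvd_gs_sub h m
      refine ⟨w + y, ?_⟩
      rw [gs_succ, Nat.choose_succ_succ' m 1, Nat.choose_one_right]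
      push_cast
      have := gs_mul_sub ρ m
      linear_combination hw - this + (ρ - 1) * hy
  obtain ⟨w, hw⟩ := h1 p
  obtain ⟨k, hk⟩ := hp
  have h2 : p.choose 2 = p * k := by
    rw [Nat.choose_two_right, hk, Nat.add_sub_cancel, mul_left_comm, Nat.mul_div_cancel_left _ two_pos]
  refine ⟨k + w, ?_⟩
  rw [h2] at hw
  push_cast at hw
  linear_combination hw

theorem gs_prime_pow {p : ℕ} (hp : Odd p) (e : ℕ) {ρ : ℤ} (h : (p : ℤ) ∣ ρ - 1) :
    ∃ z, gs ρ (p ^ e) = p ^ e * (1 + (ρ - 1) * z) := by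
  induction e with
  | zero => exact ⟨0, by simp [gs]⟩
  | succ e ih =>
    obtain ⟨z, hz⟩ := ih
    obtain ⟨y, hy⟩ := gs_prime hp (dvd_pow_sub_one h (p ^ e))
    refine ⟨z + gs ρ (p ^ e) * y * (1 + (ρ - 1) * z), ?_⟩
    rw [pow_succ, gs_mul, hy, ← gs_mul_sub ρ (p ^ e)]
    linear_combination (p * (1 + gs ρ (p ^ e) * (ρ - 1) * y)) * hz

theorem isCoprime_of_dvd_sub_one {p : ℕ} {ρ : ℤ} (h : (p : ℤ) ∣ ρ - 1) : IsCoprime (p : ℤ) ρ := by
  obtain ⟨w, hw⟩ := h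
  exact ⟨-w, 1, by linear_combination hw⟩

theorem pow_dvd_gs_iff {p : ℕ} (hp : p.Prime) (ho : Odd p) {ρ : ℤ} (h : (p : ℤ) ∣ ρ - 1)
    (k m : ℕ) : (p : ℤ) ^ k ∣ gs ρ m ↔ p ^ k ∣ m := by
  rcases Nat.eq_zero_or_pos m with rfl | hm
  · simp [gs_zero]
  obtain ⟨e, m', hm', rfl⟩ := Nat.exists_eq_pow_mul_and_not_dvd hm.ne' p hp.ne_one
  obtain ⟨z, hz⟩ := gs_prime_pow ho e h
  have c1 : IsCoprime (p : ℤ) (1 + (ρ - 1) * z) :=
    isCoprime_of_dvd_sub_one (by simpa using h.mul_right z)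
  have c2 : IsCoprime (p : ℤ) (gs (ρ ^ p ^ e) m') := by
    obtain ⟨w, hw⟩ := dvd_gs_sub (dvd_pow_sub_one h (p ^ e)) m'
    have : IsCoprime (p : ℤ) m' := Nat.isCoprime_iff_coprime.2 ((Nat.Prime.coprime_iff_not_dvd hp).2 hm')
    rw [show gs (ρ ^ p ^ e) m' = m' + p * w by linear_combination hw]
    exact this.add_mul_left_right w
  have c3 : Nat.Coprime (p ^ k) m' :=
    Nat.Coprime.pow_left k ((Nat.Prime.coprime_iff_not_dvd hp).2 hm')
  rw [gs_mul, hz, mul_assoc, c3.dvd_mul_right]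
  refine ⟨fun h => ?_, fun h => Dvd.dvd.mul_right (by exact_mod_cast h) _⟩
  exact_mod_cast (IsCoprime.pow_left (c1.mul_right c2)).dvd_of_dvd_mul_right h

theorem gs_surjective {p : ℕ} (hp : p.Prime) (ho : Odd p) {ρ : ℤ} (h : (p : ℤ) ∣ ρ - 1) (n : ℕ)
    (l : ZMod (p ^ n)) : ∃ m : ℕ, (gs ρ m : ZMod (p ^ n)) = l := by
  haveI : NeZero (p ^ n) := ⟨pow_ne_zero n hp.ne_zero⟩
  have key : ∀ m m' : ℕ, m' ≤ m → m < p ^ n → (gs ρ m : ZMod (p ^ n)) = gs ρ m' → m = m' := by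
    intro m m' hle hlt e
    obtain ⟨d, rfl⟩ := Nat.exists_eq_add_of_le hle
    rw [gs_add] at e
    push_cast at e
    rw [add_eq_left, ← Int.cast_pow, ← Int.cast_mul, ZMod.intCast_zmod_eq_zero_iff_dvd] at e
    push_cast at e
    have := (pow_dvd_gs_iff hp ho h n d).1
      ((IsCoprime.pow (isCoprime_of_dvd_sub_one h)).dvd_of_dvd_mul_left e)
    have := Nat.eq_zero_of_dvd_of_lt this (by omega)
    omega
  have hinj : Function.Injective fun x : ZMod (p ^ n) => (gs ρ x.val : ZMod (p ^ n)) := by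
    intro x y e
    apply ZMod.val_injective
    rcases le_total x.val y.val with hle | hle
    · exact (key _ _ hle (ZMod.val_lt y) e.symm).symm
    · exact key _ _ hle (ZMod.val_lt x) e
  obtain ⟨x, hx⟩ := Finite.surjective_of_injective hinj l
  exact ⟨_, hx⟩

/-- A pairing with trivial left kernel bounds the order. -/
theorem card_le_of_pairing {A B : Type*} [AddCommGroup A] [AddCommGroup B] [Finite B] {q : ℕ}
    [NeZero q] (f : A →+ B →+ ZMod q) (hf : ∀ a, (∀ b, f a b = 0) → a = 0) :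
    Nat.card A ≤ Nat.card B := by
  classical
  haveI := Fintype.ofFinite B
  let F : A → AddChar B ℂ := fun a => ZMod.stdAddChar.compAddMonoidHom (f a)
  have hF : Function.Injective F := fun a a' e => by
    rw [← sub_eq_zero]
    refine hf _ fun b => ?_
    have : ZMod.stdAddChar (f a b) = ZMod.stdAddChar (f a' b) := DFunLike.congr_fun e b
    rw [map_sub, AddMonoidHom.sub_apply, ZMod.injective_stdAddChar this, sub_self]
  have := Nat.card_le_card_of_injective F hF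
  rwa [Nat.card_eq_fintype_card (α := AddChar B ℂ), AddChar.card_eq, ← Nat.card_eq_fintype_card] at this

/-- The determinant form on the plane over `ZMod q`. -/
def om {q : ℕ} (x y : ZMod q × ZMod q) : ZMod q := x.2 * y.1 - x.1 * y.2

/-- The orthogonal complement for the determinant form. -/
def perp {q : ℕ} (N : AddSubgroup (ZMod q × ZMod q)) : AddSubgroup (ZMod q × ZMod q) where
  carrier := {y | ∀ x ∈ N, om x y = 0}
  zero_mem' := fun x _ => by simp [om]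
  add_mem' := fun {y z} hy hz x hx => by
    have := hy x hx; have := hz x hx
    simp only [om, Prod.fst_add, Prod.snd_add] at *
    linear_combination ‹x.2 * y.1 - x.1 * y.2 = 0› + this
  neg_mem' := fun {y} hy x hx => by
    have := hy x hx
    simp only [om, Prod.fst_neg, Prod.snd_neg] at *
    linear_combination -this

/-- The determinant form as a bi-additive map. -/
def omH (q : ℕ) : (ZMod q × ZMod q) →+ (ZMod q × ZMod q) →+ ZMod q :=
  AddMonoidHom.mk' (fun x => AddMonoidHom.mk' (om x) fun y z => by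
    simp only [om, Prod.fst_add, Prod.snd_add]; ring) fun x y => by
      ext z <;> simp [om] <;> ring

theorem om_eq_zero {q : ℕ} {x : ZMod q × ZMod q} (h : ∀ y, om x y = 0) : x = 0 := by
  have h1 := h (1, 0)
  have h2 := h (0, 1)
  simp [om] at h1 h2
  exact Prod.ext h2 h1

theorem card_mul_card_perp {q : ℕ} [NeZero q] (N : AddSubgroup (ZMod q × ZMod q)) :
    Nat.card N * Nat.card (perp N) = q ^ 2 := by
  have hM : Nat.card (ZMod q × ZMod q) = q ^ 2 := by rw [Nat.card_prod, Nat.card_zmod, pow_two]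
  rw [← hM, AddSubgroup.card_eq_card_quotient_mul_card_addSubgroup (perp N)]
  congr 1
  let f : (ZMod q × ZMod q) ⧸ perp N →+ N →+ ZMod q :=
    QuotientAddGroup.lift _ (((omH q).comp N.subtype).flip) fun y hy => by
      ext x; exact hy x x.2
  apply le_antisymm
  · refine card_le_of_pairing f.flip fun x hx => Subtype.ext (om_eq_zero fun y => hx y)
  · refine card_le_of_pairing f fun y hy => ?_
    induction y using QuotientAddGroup.induction_on with | H y => ?_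
    exact (QuotientAddGroup.eq_zero_iff _).2 fun x hx => hy ⟨x, hx⟩

variable {G : Type*} [Group G]

/-- Generators of a metacyclic `p`-group. -/
structure MG (p : ℕ) (a b : G) (ρ : ℤ) : Prop where
  conj : b * a * b⁻¹ = a ^ ρ
  dvd : (p : ℤ) ∣ ρ - 1
  gen : ∀ g : G, ∃ (i : ℤ) (j : ℕ), g = a ^ i * b ^ j

theorem exists_MG [Finite G] {p : ℕ} [hp : Fact p.Prime] (hG : IsPGroup p G) (h : IsMetacyclic G) :
    ∃ (a b : G) (ρ : ℤ), MG p a b ρ := by
  obtain ⟨a, b, hn, e⟩ := isMetacyclic_iff.1 h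
  have gen : ∀ g : G, ∃ (i : ℤ) (j : ℕ), g = a ^ i * b ^ j := fun g => by
    obtain ⟨_, ⟨i, rfl⟩, j, e'⟩ := (mem_sup_zpowers_nat (N := zpowers a) (x := b)
      (by rw [normalizer_eq_top]; trivial)).1 (e ▸ mem_top g)
    exact ⟨i, j, e'.symm⟩
  by_cases ha : a = 1
  · exact ⟨a, b, 1, by simp [ha], by simp, gen⟩
  obtain ⟨ρ, hρ⟩ := mem_zpowers_iff.1 (hn.conj_mem a (mem_zpowers a) b)
  refine ⟨a, b, ρ, hρ.symm, ?_, gen⟩
  have h1 : ∀ j : ℕ, b ^ j * a * (b ^ j)⁻¹ = a ^ ρ ^ j := fun j => by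
    induction j with
    | zero => simp
    | succ j ih =>
      rw [pow_succ' b, pow_succ' ρ, zpow_mul, hρ, conj_zpow, ← ih]; group
  obtain ⟨k, hk⟩ := hG b
  have h2 := h1 (p ^ k)
  rw [hk, one_mul, inv_one, mul_one] at h2
  nth_rewrite 1 [← zpow_one a] at h2
  rw [zpow_eq_zpow_iff_modEq] at h2
  have h3 : (p : ℤ) ∣ orderOf a := by
    obtain ⟨m, hm⟩ := IsPGroup.iff_orderOf.1 hG a
    rw [hm]
    have : m ≠ 0 := fun e => ha (by rw [← orderOf_eq_one_iff, hm, e, pow_zero])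
    exact_mod_cast dvd_pow_self p this
  have h4 := h3.trans h2.dvd
  rw [← ZMod.intCast_zmod_eq_zero_iff_dvd] at h4 ⊢
  push_cast at h4 ⊢
  rwa [ZMod.pow_card_pow] at h4

namespace MG

variable {p : ℕ} {a b : G} {ρ : ℤ} (h : MG p a b ρ)
include h

theorem conj_pow (j : ℕ) (k : ℤ) : b ^ j * a ^ k = a ^ (ρ ^ j * k) * b ^ j := by
  have h1 : b ^ j * a * (b ^ j)⁻¹ = a ^ ρ ^ j := by
    induction j with
    | zero => simp
    | succ j ih =>
      rw [pow_succ' b, pow_succ' ρ, zpow_mul, ← h.conj, conj_zpow, ← ih]; group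
  rw [zpow_mul, ← h1, conj_zpow]; group

theorem mul_eq (i k : ℤ) (j l : ℕ) :
    a ^ i * b ^ j * (a ^ k * b ^ l) = a ^ (i + ρ ^ j * k) * b ^ (j + l) := by
  rw [mul_assoc, ← mul_assoc (b ^ j), h.conj_pow, zpow_add, pow_add]; group

theorem pow_eq (i : ℤ) (j m : ℕ) : (a ^ i * b ^ j) ^ m = a ^ (i * gs (ρ ^ j) m) * b ^ (j * m) := by
  induction m with
  | zero => simp [gs_zero]
  | succ m ih => rw [pow_succ, ih, h.mul_eq, gs_succ, ← pow_mul]; congr 2 <;> ring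

theorem comm_eq (i k : ℤ) (j l : ℕ) :
    ⁅a ^ i * b ^ j, a ^ k * b ^ l⁆ = (a ^ (ρ - 1)) ^ (gs ρ j * k - i * gs ρ l) := by
  rw [commutatorElement_def, mul_assoc (_ * _), ← _root_.mul_inv_rev, h.mul_eq, h.mul_eq,
    add_comm l j, ← zpow_mul]
  have : (ρ - 1) * (gs ρ j * k - i * gs ρ l) = (i + ρ ^ j * k) - (k + ρ ^ l * i) := by
    linear_combination k * gs_mul_sub ρ j - i * gs_mul_sub ρ l
  rw [this, zpow_sub]; group

end MG

/-- Coordinates on the central quotient of a metacyclic `p`-group. -/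
structure MC (G : Type*) [Group G] (p n : ℕ) where
  c : G
  θ : G → ZMod (p ^ n) × ZMod (p ^ n)
  u : G → ℤ
  ord : orderOf c = p ^ n
  comm : ∀ (g h : G) (x : ℤ), (x : ZMod (p ^ n)) = om (θ g) (θ h) → ⁅g, h⁆ = c ^ x
  mul : ∀ g h, θ (g * h) = θ g + u g • θ h
  dvd : ∀ g, (p : ℤ) ∣ u g - 1
  surj : Function.Surjective θ
  root : ∀ s ≤ n, ∀ g m, θ g = p ^ s • m → g ∈ closure {x : G | ∃ y : G, y ^ p ^ s = x}

theorem exists_MC [Finite G] {p : ℕ} [hp : Fact p.Prime] (hp2 : p ≠ 2) (hG : IsPGroup p G)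
    (h : IsMetacyclic G) : ∃ n, Nonempty (MC G p n) := by
  obtain ⟨a, b, ρ, h⟩ := exists_MG hG h
  have ho := hp.out.odd_of_ne_two hp2
  obtain ⟨n, hn⟩ := IsPGroup.iff_orderOf.1 hG (a ^ (ρ - 1))
  choose fi fj hf using h.gen
  let θ : G → ZMod (p ^ n) × ZMod (p ^ n) := fun g => (fi g, gs ρ (fj g))
  have hz : ∀ x y : ℤ, (a ^ (ρ - 1)) ^ x = (a ^ (ρ - 1)) ^ y → (x : ZMod (p ^ n)) = y :=
    fun x y e => by
      rw [zpow_eq_zpow_iff_modEq, hn] at e
      exact (ZMod.intCast_eq_intCast_iff _ _ _).2 e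
  have hθ : ∀ (i : ℤ) (j : ℕ), θ (a ^ i * b ^ j) = ((i : ZMod (p ^ n)), (gs ρ j : ZMod (p ^ n))) :=
    fun i j => by
      have e1 := h.comm_eq i 0 j 1
      have e2 := h.comm_eq i 1 j 0
      rw [hf (a ^ i * b ^ j), h.comm_eq] at e1 e2
      have e1 := hz _ _ e1
      have e2 := hz _ _ e2
      simp [gs] at e1 e2
      exact Prod.ext e1 (by simpa [θ, gs] using e2)
  refine ⟨n, ⟨⟨a ^ (ρ - 1), θ, fun g => ρ ^ fj g, hn, fun g g' x hx => ?_, fun g g' => ?_,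
    fun g => dvd_pow_sub_one h.dvd _, fun m => ?_, fun s hs g m e => ?_⟩⟩⟩
  · rw [hf g, hf g', h.comm_eq, zpow_eq_zpow_iff_modEq, hn, ← ZMod.intCast_eq_intCast_iff, hx]
    simp [om, θ]
  · conv_lhs => rw [hf g, hf g', h.mul_eq, hθ, gs_add]
    simp [θ]
  · obtain ⟨j, hj⟩ := gs_surjective hp.out ho h.dvd n m.2
    obtain ⟨i, hi⟩ := ZMod.intCast_surjective m.1
    exact ⟨a ^ i * b ^ j, by rw [hθ, hi, hj]⟩
  · have hd : ∀ (x : ℤ) (y : ZMod (p ^ n)), (x : ZMod (p ^ n)) = p ^ s • y → (p : ℤ) ^ s ∣ x := by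
      intro x y e
      obtain ⟨y, rfl⟩ := ZMod.intCast_surjective y
      have : ((x - p ^ s * y : ℤ) : ZMod (p ^ n)) = 0 := by push_cast; rw [e]; simp
      rw [ZMod.intCast_zmod_eq_zero_iff_dvd] at this
      have h2 : (p : ℤ) ^ s ∣ x - p ^ s * y := (pow_dvd_pow (p : ℤ) hs).trans (by exact_mod_cast this)
      simpa using h2.add (dvd_mul_right ((p : ℤ) ^ s) y)
    obtain ⟨i, hi⟩ := hd _ _ (congrArg Prod.fst e)
    obtain ⟨j, hj⟩ := (pow_dvd_gs_iff hp.out ho h.dvd _ _).1 (hd _ _ (congrArg Prod.snd e))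
    rw [hf g, hi, hj]
    refine mul_mem (subset_closure ⟨a ^ i, ?_⟩) (subset_closure ⟨b ^ j, ?_⟩)
    · rw [← zpow_natCast, ← zpow_mul, mul_comm]; push_cast; rfl
    · rw [← pow_mul, mul_comm]

end Cfsg.Agent.PGrp
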