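import Mathlib
import Cfsg.Agent.PGrp.MetaOdd
import Cfsg.Agent.PGrp.Frattini

/-! Metacyclic `p`-groups for odd `p`: centralisers, power subgroups and derived subgroups. -/

set_option autoImplicit false
set_option linter.unusedSectionVars false

open Subgroup
open scoped commutatorElement

namespace Cfsg.Agent.PGrp

variable {G : Type*} [Group G] [Finite G] {p n : ℕ} [hp : Fact p.Prime]

/-- The multiples of `p ^ s` in the plane over `ZMod (p ^ n)`. -/
def Ms (p n s : ℕ) : AddSubgroup (ZMod (p ^ n) × ZMod (p ^ n)) :=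
  (AddSubgroup.zmultiples ((p ^ s : ℕ) : ZMod (p ^ n))).prod
    (AddSubgroup.zmultiples ((p ^ s : ℕ) : ZMod (p ^ n)))

theorem mem_zmultiples_pow {s : ℕ} {x : ZMod (p ^ n)} :
    x ∈ AddSubgroup.zmultiples ((p ^ s : ℕ) : ZMod (p ^ n)) ↔ ∃ y, x = p ^ s • y := by
  constructor
  · rintro ⟨k, rfl⟩
    exact ⟨k, by simp [mul_comm]⟩
  · rintro ⟨y, rfl⟩
    obtain ⟨k, rfl⟩ := ZMod.intCast_surjective y
    exact ⟨k, by simp [mul_comm]⟩

theorem mem_Ms {s : ℕ} {m : ZMod (p ^ n) × ZMod (p ^ n)} : m ∈ Ms p n s ↔ ∃ y, m = p ^ s • y := by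
  rw [Ms, AddSubgroup.mem_prod, mem_zmultiples_pow, mem_zmultiples_pow]
  constructor
  · rintro ⟨⟨x, hx⟩, y, hy⟩
    exact ⟨(x, y), Prod.ext hx hy⟩
  · rintro ⟨y, rfl⟩
    exact ⟨⟨y.1, rfl⟩, y.2, rfl⟩

theorem card_Ms {s : ℕ} (hs : s ≤ n) : Nat.card (Ms p n s) = p ^ (2 * (n - s)) := by
  have : Nat.card (AddSubgroup.zmultiples ((p ^ s : ℕ) : ZMod (p ^ n))) = p ^ (n - s) := by
    rw [Nat.card_zmultiples, ZMod.addOrderOf_coe _ (pow_ne_zero n hp.out.ne_zero),
      Nat.gcd_eq_right (pow_dvd_pow p hs), Nat.pow_div hs hp.out.pos]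
  rw [Ms, Nat.card_congr (AddSubgroup.prodEquiv _ _).toEquiv, Nat.card_prod, this, ← pow_add,
    two_mul]

theorem smul_eq_zero_iff_zmod {s : ℕ} (hs : s ≤ n) {x : ZMod (p ^ n)} :
    p ^ (n - s) • x = 0 ↔ ∃ y, x = p ^ s • y := by
  constructor
  · intro h
    obtain ⟨k, rfl⟩ := ZMod.intCast_surjective x
    have : (((p : ℤ) ^ (n - s) * k : ℤ) : ZMod (p ^ n)) = 0 := by
      push_cast; simpa using h
    rw [ZMod.intCast_zmod_eq_zero_iff_dvd] at this
    push_cast at this
    nth_rewrite 1 [← Nat.sub_add_cancel hs] at this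
    rw [pow_add] at this
    obtain ⟨y, rfl⟩ := Int.dvd_of_mul_dvd_mul_left
      (pow_ne_zero _ (by exact_mod_cast hp.out.ne_zero)) this
    exact ⟨y, by simp⟩
  · rintro ⟨y, rfl⟩
    rw [smul_smul, ← pow_add, Nat.sub_add_cancel hs, nsmul_eq_mul, ZMod.natCast_self, zero_mul]

theorem mem_Ms_iff {s : ℕ} (hs : s ≤ n) {m : ZMod (p ^ n) × ZMod (p ^ n)} :
    m ∈ Ms p n s ↔ p ^ (n - s) • m = 0 := by
  rw [Ms, AddSubgroup.mem_prod, mem_zmultiples_pow, mem_zmultiples_pow,
    ← smul_eq_zero_iff_zmod hs, ← smul_eq_zero_iff_zmod hs, Prod.ext_iff]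
  rfl

theorem isUnit_or_mem (x : ZMod (p ^ n)) : IsUnit x ∨ ∃ y, x = p • y := by
  obtain ⟨k, rfl⟩ := ZMod.intCast_surjective x
  by_cases h : (p : ℤ) ∣ k
  · obtain ⟨y, rfl⟩ := h
    exact Or.inr ⟨y, by simp⟩
  · left
    have : IsCoprime ((p : ℤ) ^ n) k :=
      IsCoprime.pow_left ((Nat.prime_iff_prime_int.1 hp.out).irreducible.coprime_iff_not_dvd.2 h)
    obtain ⟨a, b, e⟩ := this
    have e' := congrArg (Int.cast : ℤ → ZMod (p ^ n)) e
    push_cast at e'
    rw [← Nat.cast_pow, ZMod.natCast_self, mul_zero, zero_add] at e'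
    exact IsUnit.of_mul_eq_one_right _ e'

theorem pow_smul_plane (m : ZMod (p ^ n) × ZMod (p ^ n)) : p ^ n • m = 0 := by
  refine Prod.ext ?_ ?_
  · show p ^ n • m.1 = 0
    rw [nsmul_eq_mul, ZMod.natCast_self, zero_mul]
  · show p ^ n • m.2 = 0
    rw [nsmul_eq_mul, ZMod.natCast_self, zero_mul]

theorem om_zsmul_left {q : ℕ} (k : ℤ) (x y : ZMod q × ZMod q) : om (k • x) y = k * om x y := by
  simp [om]; ring

theorem om_swap {q : ℕ} (x y : ZMod q × ZMod q) : om x y = - om y x := by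
  simp [om]; ring

namespace MC

variable (D : MC G p n)

theorem zero_of_smul (g : G) {x : ZMod (p ^ n) × ZMod (p ^ n)} (h : D.u g • x = 0) : x = 0 := by
  obtain ⟨a, b, e⟩ := IsCoprime.pow_left (m := n) (isCoprime_of_dvd_sub_one (D.dvd g))
  rw [← one_smul ℤ x, ← e, add_smul, mul_smul, mul_smul, h, ← Nat.cast_pow, natCast_zsmul,
    pow_smul_plane, smul_zero, smul_zero, add_zero]

theorem θ_one : D.θ 1 = 0 := by
  have := D.mul 1 1
  rw [mul_one, left_eq_add] at this
  exact D.zero_of_smul 1 this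

theorem θ_inv (g : G) : D.θ g⁻¹ = - (D.u g⁻¹ • D.θ g) := by
  have := D.mul g⁻¹ g
  rw [inv_mul_cancel, D.θ_one] at this
  exact eq_neg_of_add_eq_zero_left this.symm

theorem θ_pow (g : G) (m : ℕ) : D.θ (g ^ m) = gs (D.u g) m • D.θ g := by
  induction m with
  | zero => simp [gs_zero, D.θ_one]
  | succ m ih =>
    rw [pow_succ', D.mul, ih, add_comm m 1, gs_add, add_smul, mul_smul]
    simp [gs]

theorem comm_iff {g h : G} : g * h = h * g ↔ om (D.θ g) (D.θ h) = 0 := by
  obtain ⟨x, hx⟩ := ZMod.intCast_surjective (om (D.θ g) (D.θ h))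
  rw [← commutatorElement_eq_one_iff_mul_comm, D.comm g h x hx, ← orderOf_dvd_iff_zpow_eq_one,
    D.ord, ← hx, ZMod.intCast_zmod_eq_zero_iff_dvd]

theorem mem_center {g : G} : g ∈ center G ↔ D.θ g = 0 := by
  rw [mem_center_iff]
  constructor
  · intro h
    refine om_eq_zero fun y => ?_
    obtain ⟨k, rfl⟩ := D.surj y
    exact D.comm_iff.1 (h k).symm
  · intro h k
    exact D.comm_iff.2 (by simp [h, om])

theorem θ_eq_iff {g h : G} : D.θ g = D.θ h ↔ g⁻¹ * h ∈ center G := by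
  have := D.mul g (g⁻¹ * h)
  rw [mul_inv_cancel_left] at this
  rw [D.mem_center, this, left_eq_add]
  exact ⟨D.zero_of_smul g, fun e => by rw [e, smul_zero]⟩

/-- The preimage of an additive subgroup. -/
def pre (N : AddSubgroup (ZMod (p ^ n) × ZMod (p ^ n))) : Subgroup G where
  carrier := {g | D.θ g ∈ N}
  one_mem' := by show D.θ 1 ∈ N; rw [D.θ_one]; exact N.zero_mem
  mul_mem' := fun {g h} hg hh => by
    show D.θ (g * h) ∈ N; rw [D.mul]; exact N.add_mem hg (N.zsmul_mem hh _)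
  inv_mem' := fun {g} hg => by
    show D.θ g⁻¹ ∈ N; rw [D.θ_inv]; exact N.neg_mem (N.zsmul_mem hg _)

theorem mem_pre {N : AddSubgroup (ZMod (p ^ n) × ZMod (p ^ n))} {g : G} :
    g ∈ D.pre N ↔ D.θ g ∈ N := Iff.rfl

theorem center_le_pre (N : AddSubgroup (ZMod (p ^ n) × ZMod (p ^ n))) : center G ≤ D.pre N :=
  fun g hg => by rw [mem_pre, D.mem_center.1 hg]; exact N.zero_mem

theorem card_pre (N : AddSubgroup (ZMod (p ^ n) × ZMod (p ^ n))) :
    Nat.card (D.pre N) = Nat.card (center G) * Nat.card N := by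
  rw [card_eq_card_mul_relIndex (D.center_le_pre N),
    Suz.FA.relIndex_eq_ncard _ _ D.θ fun g _ g' _ => D.θ_eq_iff]
  congr 1
  rw [← Nat.card_coe_set_eq]
  have : D.θ '' (D.pre N : Set G) = N := by
    ext m
    constructor
    · rintro ⟨g, hg, rfl⟩; exact hg
    · intro hm
      obtain ⟨g, rfl⟩ := D.surj m
      exact ⟨g, hm, rfl⟩
  rw [this]; rfl

theorem exists_pre (hp2 : p ≠ 2) {R : Subgroup G} (h : center G ≤ R) : ∃ N, D.pre N = R := by
  have hs : ∀ g ∈ R, ∀ k : ℤ, ∃ g' ∈ R, D.θ g' = k • D.θ g := fun g hg k => by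
    obtain ⟨m, hm⟩ := gs_surjective hp.out (hp.out.odd_of_ne_two hp2) (D.dvd g) n k
    refine ⟨g ^ m, R.pow_mem hg m, ?_⟩
    rw [D.θ_pow]
    ext <;> simp [hm]
  refine ⟨{ carrier := D.θ '' R
            zero_mem' := ⟨1, R.one_mem, D.θ_one⟩
            add_mem' := ?_
            neg_mem' := ?_ }, ?_⟩
  · rintro _ _ ⟨g, hg, rfl⟩ ⟨g', hg', rfl⟩
    obtain ⟨a, b, e⟩ := IsCoprime.pow_left (m := n) (isCoprime_of_dvd_sub_one (D.dvd g))
    obtain ⟨k, hk, e'⟩ := hs g' hg' b
    refine ⟨g * k, R.mul_mem hg hk, ?_⟩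
    rw [D.mul, e', smul_smul, mul_comm, eq_sub_of_add_eq' e, sub_smul, one_smul, mul_smul,
      ← Nat.cast_pow, natCast_zsmul, pow_smul_plane, smul_zero, sub_zero]
  · rintro _ ⟨g, hg, rfl⟩
    obtain ⟨k, hk, e⟩ := hs g hg (-1)
    exact ⟨k, hk, by rw [e, neg_one_smul]⟩
  · ext g
    refine ⟨?_, fun hg => ⟨g, hg, rfl⟩⟩
    rintro ⟨k, hk, e⟩
    simpa using R.mul_mem hk (h (D.θ_eq_iff.1 e))

theorem centralizer_pre (N : AddSubgroup (ZMod (p ^ n) × ZMod (p ^ n))) :
    centralizer (D.pre N : Set G) = D.pre (perp N) := by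
  ext g
  rw [mem_centralizer_iff, mem_pre]
  constructor
  · intro h x hx
    obtain ⟨k, rfl⟩ := D.surj x
    exact D.comm_iff.1 (h k hx)
  · intro h k hk
    exact D.comm_iff.2 (h _ hk)

include D in
theorem card_eq : Nat.card G = Nat.card (center G) * p ^ (2 * n) := by
  have : D.pre ⊤ = ⊤ := by ext; simp [mem_pre]
  have e := D.card_pre ⊤
  rw [this, card_top, AddSubgroup.card_top, Nat.card_prod, Nat.card_zmod, ← pow_add,
    ← two_mul] at e
  exact e

include D in
theorem index_center : (center G).index = p ^ (2 * n) :=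
  Nat.eq_of_mul_eq_mul_left (Nat.card_pos (α := center G))
    (by rw [card_mul_index, D.card_eq])

theorem commutator_eq : _root_.commutator G = zpowers D.c := by
  apply le_antisymm
  · refine commutator_le.2 fun g _ h _ => ?_
    obtain ⟨x, hx⟩ := ZMod.intCast_surjective (om (D.θ g) (D.θ h))
    rw [D.comm g h x hx]
    exact zpow_mem_zpowers _ _
  · obtain ⟨g, hg⟩ := D.surj (0, 1)
    obtain ⟨h, hh⟩ := D.surj (1, 0)
    have := D.comm g h 1 (by simp [hg, hh, om])
    rw [zpow_one] at this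
    rw [zpowers_le, ← this]
    exact commutator_mem_commutator (mem_top _) (mem_top _)

include D in
theorem card_commutator : Nat.card (_root_.commutator G) = p ^ n := by
  rw [D.commutator_eq, Nat.card_zpowers, D.ord]

include D in
theorem card_mul_centralizer (hp2 : p ≠ 2) {R : Subgroup G} (h : center G ≤ R) :
    Nat.card R * Nat.card (centralizer (R : Set G)) = Nat.card G * Nat.card (center G) := by
  haveI : NeZero (p ^ n) := ⟨pow_ne_zero n hp.out.ne_zero⟩
  obtain ⟨N, rfl⟩ := D.exists_pre hp2 h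
  rw [D.centralizer_pre, D.card_pre, D.card_pre, D.card_eq, mul_comm 2 n, pow_mul,
    ← card_mul_card_perp N]
  ring

theorem index_centralizer (g : G) : (centralizer {g}).index = addOrderOf (D.θ g) := by
  haveI : NeZero (p ^ n) := ⟨pow_ne_zero n hp.out.ne_zero⟩
  have e : centralizer {g} = D.pre (perp (AddSubgroup.zmultiples (D.θ g))) := by
    ext h
    rw [mem_centralizer_singleton_iff, eq_comm, D.comm_iff, mem_pre]
    constructor
    · rintro e _ ⟨k, rfl⟩
      simp only [om_zsmul_left, e, mul_zero]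
    · intro e
      exact e _ (AddSubgroup.mem_zmultiples _)
  have h1 := card_mul_index (centralizer {g})
  rw [D.card_eq, mul_comm 2 n, pow_mul, ← card_mul_card_perp (AddSubgroup.zmultiples (D.θ g)),
    Nat.card_zmultiples] at h1
  nth_rewrite 1 [e] at h1
  rw [D.card_pre, mul_assoc, mul_comm (addOrderOf _)] at h1
  exact Nat.eq_of_mul_eq_mul_left Nat.card_pos (Nat.eq_of_mul_eq_mul_left Nat.card_pos h1)

theorem index_centralizer_le_iff (g : G) {s : ℕ} (hs : s ≤ n) :
    (centralizer {g}).index ≤ p ^ (n - s) ↔ D.θ g ∈ Ms p n s := by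
  rw [D.index_centralizer, mem_Ms_iff hs, ← addOrderOf_dvd_iff_nsmul_eq_zero]
  obtain ⟨i, -, hi⟩ := (Nat.dvd_prime_pow hp.out).1
    (addOrderOf_dvd_iff_nsmul_eq_zero.2 (pow_smul_plane (D.θ g)))
  rw [hi, Nat.pow_le_pow_iff_right hp.out.one_lt, Nat.pow_dvd_pow_iff_le_right hp.out.one_lt]

theorem mho_eq (hp2 : p ≠ 2) {s : ℕ} (hs : s ≤ n) :
    closure {x : G | ∃ y : G, y ^ p ^ s = x} = D.pre (Ms p n s) := by
  apply le_antisymm
  · rw [closure_le]
    rintro _ ⟨y, rfl⟩
    obtain ⟨z, hz⟩ := gs_prime_pow (hp.out.odd_of_ne_two hp2) s (D.dvd y)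
    refine D.mem_pre.2 (mem_Ms.2 ⟨(1 + (D.u y - 1) * z) • D.θ y, ?_⟩)
    rw [D.θ_pow, hz, mul_smul, ← Nat.cast_pow, natCast_zsmul]
  · intro g hg
    obtain ⟨m, hm⟩ := mem_Ms.1 hg
    exact D.root s hs g m hm

theorem exists_unit {m : ZMod (p ^ n) × ZMod (p ^ n)} (h : m ∉ Ms p n 1) :
    ∃ y, om m y = 1 := by
  rcases isUnit_or_mem m.1 with ⟨w, hw⟩ | ⟨x, hx⟩
  · exact ⟨(0, -(w⁻¹ : (ZMod (p ^ n))ˣ)), by simp [om, ← hw]⟩
  rcases isUnit_or_mem m.2 with ⟨w, hw⟩ | ⟨y, hy⟩
  · exact ⟨((w⁻¹ : (ZMod (p ^ n))ˣ), 0), by simp [om, ← hw]⟩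
  exact absurd (mem_Ms.2 ⟨(x, y), Prod.ext (by simpa using hx) (by simpa using hy)⟩) h

include D in
theorem card_commutator_of_index (hp2 : p ≠ 2) (hG : IsPGroup p G) (hn : n ≠ 0) {H : Subgroup G}
    (hH : H.index = p) : Nat.card (⁅H, H⁆ : Subgroup G) * p = p ^ n := by
  haveI : NeZero (p ^ n) := ⟨pow_ne_zero n hp.out.ne_zero⟩
  haveI := normal_of_index_eq_prime hG hH
  have h1 : 1 ≤ n := Nat.one_le_iff_ne_zero.2 hn
  have hle : D.pre (Ms p n 1) ≤ H := by
    rw [← D.mho_eq hp2 h1, closure_le]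
    rintro _ ⟨y, rfl⟩
    rw [pow_one, ← hH]
    exact H.pow_index_mem y
  obtain ⟨N, hN⟩ := D.exists_pre hp2 ((D.center_le_pre _).trans hle)
  have e : ⁅H, H⁆ = zpowers (D.c ^ p) := by
    apply le_antisymm
    · refine commutator_le.2 fun g hg h hh => ?_
      rcases isUnit_or_mem (om (D.θ g) (D.θ h)) with ⟨w, hw⟩ | ⟨x, hx⟩
      · exfalso
        have : H = ⊤ := by
          rw [← hN] at hg hh ⊢
          rw [eq_top_iff]
          intro k _
          obtain ⟨α, hα⟩ := ZMod.intCast_surjective 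
            (((w⁻¹ : (ZMod (p ^ n))ˣ) : ZMod (p ^ n)) * om (D.θ k) (D.θ h))
          obtain ⟨β, hβ⟩ := ZMod.intCast_surjective 
            (((w⁻¹ : (ZMod (p ^ n))ˣ) : ZMod (p ^ n)) * om (D.θ g) (D.θ k))
          have : D.θ k = α • D.θ g + β • D.θ h := by
            have hw' : ((w⁻¹ : (ZMod (p ^ n))ˣ) : ZMod (p ^ n)) * om (D.θ g) (D.θ h) = 1 := by
              rw [← hw, Units.inv_mul]
            ext
            · show _ = α • (D.θ g).1 + β • (D.θ h).1
              simp only [zsmul_eq_mul, hα, hβ, om] at hw' ⊢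
              linear_combination (-(D.θ k).1) * hw'
            · show _ = α • (D.θ g).2 + β • (D.θ h).2
              simp only [zsmul_eq_mul, hα, hβ, om] at hw' ⊢
              linear_combination (-(D.θ k).2) * hw'
          rw [mem_pre, this]
          exact N.add_mem (N.zsmul_mem hg _) (N.zsmul_mem hh _)
        rw [this, index_top] at hH
        exact hp.out.one_lt.ne hH
      · obtain ⟨y, rfl⟩ := ZMod.intCast_surjective x
        rw [D.comm g h (p * y) (by rw [hx]; simp), zpow_mul, zpow_natCast]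
        exact zpow_mem_zpowers _ _
    · have hne : ¬ H ≤ D.pre (Ms p n 1) := fun hge => by
        have e1 := card_mul_index H
        rw [hH, le_antisymm hge hle, D.card_pre, card_Ms h1, D.card_eq, mul_assoc, ← pow_succ] at e1
        have := Nat.pow_right_injective hp.out.two_le (Nat.eq_of_mul_eq_mul_left Nat.card_pos e1)
        omega
      obtain ⟨g, hg, hg'⟩ := SetLike.not_le_iff_exists.1 hne
      obtain ⟨y, hy⟩ := exists_unit hg'
      obtain ⟨k, hk⟩ := D.surj (p • y)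
      have hkH : k ∈ H := hle (D.mem_pre.2 (mem_Ms.2 ⟨y, by rw [hk, pow_one]⟩))
      have := D.comm g k p (by
        rw [hk, om_swap, ← natCast_zsmul, om_zsmul_left, om_swap, hy]; simp)
      rw [zpowers_le, ← zpow_natCast, ← this]
      exact commutator_mem_commutator hg hkH
  rw [e, Nat.card_zpowers, orderOf_pow' _ hp.out.ne_zero, D.ord,
    Nat.gcd_eq_right (dvd_pow_self p hn), Nat.div_mul_cancel (dvd_pow_self p hn)]

end MC

theorem meta_card_commutator (hp2 : p ≠ 2) (hG : IsPGroup p G) (hm : IsMetacyclic G)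
    {H K : Subgroup G} (hle : H ≤ K) (hi : H.relIndex K = p) (hK : ⁅K, K⁆ ≠ ⊥) :
    Nat.card (⁅H, H⁆ : Subgroup G) * p = Nat.card (⁅K, K⁆ : Subgroup G) := by
  obtain ⟨n, ⟨D⟩⟩ := exists_MC hp2 (hG.to_subgroup K)
    (isMetacyclic_of_injective hm K.subtype K.subtype_injective)
  have e1 : Nat.card (⁅K, K⁆ : Subgroup G) = p ^ n := by
    rw [← Core.map_commutator_subtype, Core.card_map_subtype, D.card_commutator]
  have hn : n ≠ 0 := fun e => hK (by rwa [e, pow_zero, card_eq_one] at e1)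
  rw [e1, ← D.card_commutator_of_index hp2 (hG.to_subgroup K) hn (H := H.subgroupOf K) hi,
    ← Core.card_map_subtype, map_commutator, subgroupOf_map_subtype, inf_eq_left.2 hle]

theorem isMulCommutative_iff_commutator {H : Subgroup G} : IsMulCommutative H ↔ ⁅H, H⁆ = ⊥ := by
  rw [commutator_eq_bot_iff_le_centralizer, le_centralizer_iff_isMulCommutative]

theorem meta_card_nonabelian (hp2 : p ≠ 2) (hG : IsPGroup p G) (hm : IsMetacyclic G)
    {R : Subgroup G} (hR : ⁅R, R⁆ ≠ ⊥) :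
    Nat.card R = (_root_.commutator G).index * Nat.card (⁅R, R⁆ : Subgroup G) := by
  have key : ∀ K : Subgroup G, R ≤ K → Nat.card R * Nat.card (⁅K, K⁆ : Subgroup G) =
      Nat.card K * Nat.card (⁅R, R⁆ : Subgroup G) := by
    intro K
    induction K using WellFoundedLT.induction with | ind K ih => ?_
    intro hle
    rcases hle.eq_or_lt with rfl | hlt
    · rfl
    obtain ⟨H, h1, h2, h3, -⟩ := exists_relIndex_prime_ge (hG.to_subgroup K) hlt
    have hlt' : H < K := lt_of_le_of_ne h2 fun e => by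
      rw [e, relIndex_self] at h3; exact hp.out.one_lt.ne h3
    rw [← meta_card_commutator hp2 hG hm h2 h3 fun e => hR
      (eq_bot_iff.2 (e ▸ commutator_mono hle hle)), ← mul_assoc, ih H hlt' h1,
      card_eq_card_mul_relIndex h2, h3]
    ring
  have := key ⊤ le_top
  rw [card_top, ← card_mul_index (_root_.commutator G), mul_comm, mul_assoc] at this
  exact Nat.eq_of_mul_eq_mul_left Nat.card_pos this

theorem meta_card_maximal (hp2 : p ≠ 2) (hG : IsPGroup p G) (hm : IsMetacyclic G)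
    {L : Subgroup G} (hL : Maximal (fun K : Subgroup G => IsMulCommutative K) L) :
    Nat.card L = (_root_.commutator G).index := by
  by_cases h : L = ⊤
  · have := isMulCommutative_iff_commutator.1 hL.1
    rw [h] at this
    rw [h, _root_.commutator_def, this, index_bot, card_top]
  haveI := hG.isNilpotent
  have hlt := normalizerCondition_of_isNilpotent L (lt_top_iff_ne_top.2 h)
  obtain ⟨K, h1, -, h3, -⟩ := exists_step (hG.to_subgroup _) le_rfl le_normalizer le_rfl hlt
  have hK : ⁅K, K⁆ ≠ ⊥ := fun e => by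
    have := hL.2 (isMulCommutative_iff_commutator.2 e) h1
    rw [relIndex_eq_one.2 this] at h3
    exact hp.out.one_lt.ne h3
  have e1 := meta_card_commutator hp2 hG hm h1 h3 hK
  have e2 := meta_card_nonabelian hp2 hG hm hK
  rw [isMulCommutative_iff_commutator.1 hL.1, card_bot, one_mul] at e1
  rw [← e1, card_eq_card_mul_relIndex h1, h3] at e2
  exact Nat.eq_of_mul_eq_mul_right hp.out.pos e2

theorem meta_abelian_iff (hp2 : p ≠ 2) (hG : IsPGroup p G) (hm : IsMetacyclic G) (L : Subgroup G) :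
    IsMulCommutative L ↔ Nat.card L ≤ (_root_.commutator G).index := by
  constructor
  · intro h
    obtain ⟨K, hle, hK⟩ := (Set.toFinite {K : Subgroup G | IsMulCommutative K}).exists_le_maximal
      (show L ∈ {K : Subgroup G | IsMulCommutative K} from h)
    exact (card_le_of_le hle).trans (meta_card_maximal hp2 hG hm hK).le
  · intro h
    by_contra hn
    have hne := mt isMulCommutative_iff_commutator.2 hn
    rw [meta_card_nonabelian hp2 hG hm hne] at h
    have h1 := (one_lt_card_iff_ne_bot _).2 hne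
    have h2 : 0 < (_root_.commutator G).index := Nat.pos_of_ne_zero FiniteIndex.index_ne_zero
    nlinarith

theorem meta_maximal_iff (hp2 : p ≠ 2) (hG : IsPGroup p G) (hm : IsMetacyclic G) (L : Subgroup G) :
    Maximal (fun K : Subgroup G => IsMulCommutative K) L ↔
      Nat.card L = (_root_.commutator G).index := by
  refine ⟨meta_card_maximal hp2 hG hm, fun h => ⟨(meta_abelian_iff hp2 hG hm L).2 h.le,
    fun K hK hle => (eq_of_le_of_card_le hle ?_).ge⟩⟩
  rw [h]; exact (meta_abelian_iff hp2 hG hm K).1 hK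

theorem meta_index_center (hp2 : p ≠ 2) (hG : IsPGroup p G) (hm : IsMetacyclic G) :
    (center G).index = Nat.card (_root_.commutator G) ^ 2 := by
  obtain ⟨n, ⟨D⟩⟩ := exists_MC hp2 hG hm
  rw [D.index_center, D.card_commutator, ← pow_mul, mul_comm]

end Cfsg.Agent.PGrp
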